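import Cfsg.Agent.H155.Unit
import Cfsg.Agent.LieClassical.SLGen
import Mathlib

/-!
# S2187, TRI-4: fixed points of Frobenius maps of `SL 3 k` given on the root groups (helper592)

`fix_SL3`, `fix_SU3` : `k` algebraically closed of characteristic `r`, `τ` an automorphism of `SL 3 k` with
`τ (E_ij t) = E_ij (c_ij t^q)` resp. `τ (E_ij t) = E_{rev j, rev i} (c_ij t^q)`: the fixed points are `SL 3 F_q` resp.
`SU 3 F_{q^2} q`.
-/

set_option autoImplicit false

namespace Cfsg.Agent.H592.TriFix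

open Matrix Cfsg

section field

variable {k : Type*} [Field k] [IsAlgClosed k] {r : ℕ} [Fact r.Prime] [CharP k r]

/-- the fixed field of `t ↦ t ^ (r ^ e)` in an algebraically closed field -/
theorem exists_subfield {e : ℕ} (he : 0 < e) :
    ∃ E : Subfield k, Nat.card E = r ^ e ∧ ∀ t : k, t ∈ E ↔ t ^ r ^ e = t := by
  classical
  have hp : r.Prime := Fact.out
  have : ExpChar k r := ExpChar.prime Fact.out
  refine ⟨RingHom.eqLocusField (iterateFrobenius k r e) (RingHom.id k), ?_, fun t => ?_⟩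
  · let f : Polynomial k := Polynomial.X ^ r ^ e - Polynomial.X
    have hsep : f.Separable := galois_poly_separable r (r ^ e) (dvd_pow_self r he.ne')
    have h1 : 1 < r ^ e := Nat.one_lt_pow he.ne' hp.one_lt
    have h0 : f ≠ 0 := FiniteField.X_pow_card_sub_X_ne_zero k h1
    have h2 : f.rootSet k = ((RingHom.eqLocusField (iterateFrobenius k r e) (RingHom.id k) : Subfield k) : Set k) := by
      ext t
      rw [Polynomial.mem_rootSet, SetLike.mem_coe, RingHom.mem_eqLocusField, iterateFrobenius_def]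
      constructor
      · rintro ⟨-, h3⟩
        simpa [f, sub_eq_zero] using h3
      · intro h3
        exact ⟨h0, by simp [f, h3]⟩
    have h3 := Polynomial.card_rootSet_eq_natDegree (K := k) hsep (IsAlgClosed.splits _)
    rw [FiniteField.X_pow_card_sub_X_natDegree_eq k h1] at h3
    rw [← h3, ← Nat.card_eq_fintype_card]
    exact Nat.card_congr (Equiv.setCongr h2.symm)
  · rw [RingHom.mem_eqLocusField, iterateFrobenius_def]
    rfl

end field

/-! ### fixed points and conjugation -/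

theorem fix_equiv {G : Type*} [Group G] (τ : MulAut G) (φ : G ≃* G) (σ : G →* G) (h : ∀ a, τ (φ a) = φ (σ a)) :
    Nonempty (↥(τ.toMonoidHom.eqLocus (MonoidHom.id _)) ≃* ↥(σ.eqLocus (MonoidHom.id _))) := by
  have key : ∀ a : G, a ∈ σ.eqLocus (MonoidHom.id _) ↔ φ a ∈ τ.toMonoidHom.eqLocus (MonoidHom.id _) := by
    intro a
    show σ a = a ↔ τ (φ a) = φ a
    rw [h]
    exact φ.injective.eq_iff.symm
  exact ⟨{ toFun := fun a => ⟨φ.symm a, (key _).2 (by rw [φ.apply_symm_apply]; exact a.2)⟩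
           invFun := fun a => ⟨φ a, (key _).1 a.2⟩
           left_inv := fun a => Subtype.ext (φ.apply_symm_apply _)
           right_inv := fun a => Subtype.ext (φ.symm_apply_apply _)
           map_mul' := fun a b => Subtype.ext (map_mul φ.symm _ _) }⟩

section conj

variable {k : Type*} [Field k]

local notation "Mt" => Matrix (Fin 3) (Fin 3)

/-- Conjugation of `SL 3 k` by an invertible matrix. -/
def cj (X : (Mt k)ˣ) : SpecialLinearGroup (Fin 3) k ≃* SpecialLinearGroup (Fin 3) k where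
  toFun A := ⟨(X : Mt k) * (A : Mt k) * ((X⁻¹ : (Mt k)ˣ) : Mt k), by
    rw [det_mul, det_mul, A.2, mul_one, ← det_mul, Units.mul_inv, det_one]⟩
  invFun A := ⟨((X⁻¹ : (Mt k)ˣ) : Mt k) * (A : Mt k) * (X : Mt k), by
    rw [det_mul, det_mul, A.2, mul_one, ← det_mul, Units.inv_mul, det_one]⟩
  left_inv A := Subtype.ext (by
    show ((X⁻¹ : (Mt k)ˣ) : Mt k) * ((X : Mt k) * (A : Mt k) * ((X⁻¹ : (Mt k)ˣ) : Mt k)) * (X : Mt k) = A
    rw [mul_assoc (X : Mt k), Units.inv_mul_cancel_left, mul_assoc, Units.inv_mul, mul_one])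
  right_inv A := Subtype.ext (by
    show (X : Mt k) * (((X⁻¹ : (Mt k)ˣ) : Mt k) * (A : Mt k) * (X : Mt k)) * ((X⁻¹ : (Mt k)ˣ) : Mt k) = A
    rw [mul_assoc ((X⁻¹ : (Mt k)ˣ) : Mt k), Units.mul_inv_cancel_left, mul_assoc, Units.mul_inv, mul_one])
  map_mul' A B := Subtype.ext (by
    show (X : Mt k) * ((A : Mt k) * (B : Mt k)) * ((X⁻¹ : (Mt k)ˣ) : Mt k) =
      ((X : Mt k) * (A : Mt k) * ((X⁻¹ : (Mt k)ˣ) : Mt k)) * ((X : Mt k) * (B : Mt k) * ((X⁻¹ : (Mt k)ˣ) : Mt k))
    rw [mul_assoc ((X : Mt k) * (A : Mt k)), mul_assoc (X : Mt k) (B : Mt k), Units.inv_mul_cancel_left]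
    simp only [mul_assoc])

theorem cj_coe (X : (Mt k)ˣ) (A : SpecialLinearGroup (Fin 3) k) :
    ((cj X A : SpecialLinearGroup (Fin 3) k) : Mt k) = (X : Mt k) * (A : Mt k) * ((X⁻¹ : (Mt k)ˣ) : Mt k) := rfl

theorem cj_mul (X Y : (Mt k)ˣ) (A : SpecialLinearGroup (Fin 3) k) : cj (X * Y) A = cj X (cj Y A) := by
  apply Subtype.ext
  rw [cj_coe, cj_coe, cj_coe, _root_.mul_inv_rev, Units.val_mul, Units.val_mul]
  simp only [mul_assoc]

/-- To recognise a conjugate. -/
theorem cj_eq {X : (Mt k)ˣ} {A B : SpecialLinearGroup (Fin 3) k} (h : (X : Mt k) * (A : Mt k) = (B : Mt k) * (X : Mt k)) :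
    cj X A = B := by
  apply Subtype.ext
  rw [cj_coe, h, Units.mul_inv_cancel_right]

/-- The inverse transpose. -/
def its : SpecialLinearGroup (Fin 3) k →* SpecialLinearGroup (Fin 3) k where
  toFun A := ⟨((A⁻¹ : SpecialLinearGroup (Fin 3) k) : Mt k)ᵀ, by rw [det_transpose]; exact (A⁻¹).2⟩
  map_one' := Subtype.ext (by simp)
  map_mul' A B := Subtype.ext (by
    show (((A * B)⁻¹ : SpecialLinearGroup (Fin 3) k) : Mt k)ᵀ =
      ((A⁻¹ : SpecialLinearGroup (Fin 3) k) : Mt k)ᵀ * ((B⁻¹ : SpecialLinearGroup (Fin 3) k) : Mt k)ᵀ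
    rw [_root_.mul_inv_rev]
    exact transpose_mul (B⁻¹ : SpecialLinearGroup (Fin 3) k).1 (A⁻¹ : SpecialLinearGroup (Fin 3) k).1)

theorem val_inv_mul (A : SpecialLinearGroup (Fin 3) k) : (A⁻¹ : SpecialLinearGroup (Fin 3) k).1 * A.1 = 1 :=
  congrArg Subtype.val (inv_mul_cancel A)

theorem val_mul_inv (A : SpecialLinearGroup (Fin 3) k) : A.1 * (A⁻¹ : SpecialLinearGroup (Fin 3) k).1 = 1 :=
  congrArg Subtype.val (mul_inv_cancel A)

theorem its_coe (A : SpecialLinearGroup (Fin 3) k) :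
    ((its A : SpecialLinearGroup (Fin 3) k) : Mt k) = ((A⁻¹ : SpecialLinearGroup (Fin 3) k) : Mt k)ᵀ := rfl

theorem its_its (A : SpecialLinearGroup (Fin 3) k) : its (its A) = A := by
  apply Subtype.ext
  rw [its_coe, ← map_inv, its_coe, inv_inv, transpose_transpose]

/-- The inverse transpose of an invertible matrix. -/
def itG (X : (Mt k)ˣ) : (Mt k)ˣ :=
  ⟨((X⁻¹ : (Mt k)ˣ) : Mt k)ᵀ, (X : Mt k)ᵀ, by rw [← transpose_mul, Units.mul_inv, transpose_one],
    by rw [← transpose_mul, Units.inv_mul, transpose_one]⟩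

theorem its_cj (X : (Mt k)ˣ) (A : SpecialLinearGroup (Fin 3) k) : its (cj X A) = cj (itG X) (its A) := by
  apply Subtype.ext
  rw [its_coe, ← map_inv, cj_coe, cj_coe, transpose_mul, transpose_mul, its_coe, mul_assoc]
  rfl

variable (F : k →+* k)

theorem map_cj (X : (Mt k)ˣ) (A : SpecialLinearGroup (Fin 3) k) :
    SpecialLinearGroup.map F (cj X A) = cj (Units.map F.mapMatrix.toMonoidHom X) (SpecialLinearGroup.map F A) := by
  apply Subtype.ext
  rw [cj_coe]
  show F.mapMatrix ((X : Mt k) * (A : Mt k) * ((X⁻¹ : (Mt k)ˣ) : Mt k)) = _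
  rw [map_mul, map_mul]
  rfl

theorem map_its (A : SpecialLinearGroup (Fin 3) k) :
    SpecialLinearGroup.map F (its A) = its (SpecialLinearGroup.map F A) := by
  apply Subtype.ext
  rw [its_coe, ← map_inv]
  show F.mapMatrix (((A⁻¹ : SpecialLinearGroup (Fin 3) k) : Mt k)ᵀ) = (F.mapMatrix _)ᵀ
  rw [RingHom.mapMatrix_apply, RingHom.mapMatrix_apply, transpose_map]

/-- Intertwining: the Lang equation `M σ(X) = X`, linear case. -/
theorem inter_SL (τ : MulAut (SpecialLinearGroup (Fin 3) k)) (M X : (Mt k)ˣ)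
    (h1 : ∀ A, τ A = cj M (SpecialLinearGroup.map F A)) (h2 : M * Units.map F.mapMatrix.toMonoidHom X = X)
    (A : SpecialLinearGroup (Fin 3) k) : τ (cj X A) = cj X (SpecialLinearGroup.map F A) := by
  rw [h1, map_cj, ← cj_mul, h2]

/-- Intertwining: the Lang equation, unitary case. -/
theorem inter_SU (τ : MulAut (SpecialLinearGroup (Fin 3) k)) (M X : (Mt k)ˣ)
    (h1 : ∀ A, τ A = cj M (its (SpecialLinearGroup.map F A)))
    (h2 : M * itG (Units.map F.mapMatrix.toMonoidHom X) = X)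
    (A : SpecialLinearGroup (Fin 3) k) : τ (cj X A) = cj X ((its.comp (SpecialLinearGroup.map F)) A) := by
  rw [h1, map_cj, its_cj, ← cj_mul, h2]
  rfl

/-- The fixed points of the map of entries. -/
theorem fix_map (E : Subfield k) (hE : ∀ t : k, t ∈ E ↔ F t = t) :
    Nonempty (↥((SpecialLinearGroup.map F : SpecialLinearGroup (Fin 3) k →* _).eqLocus (MonoidHom.id _)) ≃*
      SpecialLinearGroup (Fin 3) E) := by
  have hinj : Function.Injective (SpecialLinearGroup.map E.subtype : SpecialLinearGroup (Fin 3) E →*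
      SpecialLinearGroup (Fin 3) k) := by
    intro A B h
    apply Subtype.ext
    ext i j
    have h1 := congrArg (fun C : SpecialLinearGroup (Fin 3) k => (C : Mt k) i j) h
    exact h1
  have hr : (SpecialLinearGroup.map E.subtype : SpecialLinearGroup (Fin 3) E →* SpecialLinearGroup (Fin 3) k).range =
      (SpecialLinearGroup.map F : SpecialLinearGroup (Fin 3) k →* _).eqLocus (MonoidHom.id _) := by
    ext A
    constructor
    · rintro ⟨B, rfl⟩
      apply Subtype.ext
      ext i j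
      show F ((B : Matrix (Fin 3) (Fin 3) E) i j : k) = ((B : Matrix (Fin 3) (Fin 3) E) i j : k)
      exact (hE _).1 ((B : Matrix (Fin 3) (Fin 3) E) i j).2
    · intro hA
      have h1 : ∀ i j, (A : Mt k) i j ∈ E := by
        intro i j
        rw [hE]
        exact congrArg (fun C : SpecialLinearGroup (Fin 3) k => (C : Mt k) i j) hA
      let B : Matrix (Fin 3) (Fin 3) E := fun i j => ⟨(A : Mt k) i j, h1 i j⟩
      have hB : E.subtype.mapMatrix B = (A : Mt k) := by ext i j; rfl
      have hd : B.det = 1 := by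
        apply E.subtype.injective
        rw [RingHom.map_det, hB, A.2, map_one]
      exact ⟨⟨B, hd⟩, Subtype.ext hB⟩
  exact ⟨((MonoidHom.ofInjective hinj).trans (MulEquiv.subgroupCongr hr)).symm⟩

/-- The fixed points of the unitary map. -/
theorem fix_its {q : ℕ} (hF : ∀ t : k, F t = t ^ q) (E : Subfield k) (hE : ∀ t : k, t ∈ E ↔ F (F t) = t)
    (σ : E →+* E) (hσ : ∀ t, σ t = t ^ q) :
    Nonempty (↥((its.comp (SpecialLinearGroup.map F) : SpecialLinearGroup (Fin 3) k →* _).eqLocus (MonoidHom.id _)) ≃*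
      ↥(SU 3 E q)) := by
  have hinj : Function.Injective ((SpecialLinearGroup.map E.subtype : SpecialLinearGroup (Fin 3) E →*
      SpecialLinearGroup (Fin 3) k).comp (SU 3 E q).subtype) := by
    intro A B h
    apply Subtype.ext
    apply Subtype.ext
    ext i j
    have h1 := congrArg (fun C : SpecialLinearGroup (Fin 3) k => (C : Mt k) i j) h
    exact h1
  have hfix : ∀ A : SpecialLinearGroup (Fin 3) k, its (SpecialLinearGroup.map F A) = A ↔
      (A : Mt k)ᵀ * F.mapMatrix (A : Mt k) = 1 := by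
    intro A
    constructor
    · intro h
      have h1 : SpecialLinearGroup.map F A = its A := by rw [← its_its (SpecialLinearGroup.map F A), h]
      have h2 : F.mapMatrix (A : Mt k) = ((A⁻¹ : SpecialLinearGroup (Fin 3) k) : Mt k)ᵀ := congrArg Subtype.val h1
      rw [h2, ← transpose_mul, val_inv_mul, transpose_one]
    · intro h
      have h1 : SpecialLinearGroup.map F A = its A := by
        apply Subtype.ext
        show F.mapMatrix (A : Mt k) = ((A⁻¹ : SpecialLinearGroup (Fin 3) k) : Mt k)ᵀ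
        have h3 : ((A⁻¹ : SpecialLinearGroup (Fin 3) k) : Mt k)ᵀ * (A : Mt k)ᵀ = 1 := by
          rw [← transpose_mul, val_mul_inv, transpose_one]
        calc F.mapMatrix (A : Mt k) = (((A⁻¹ : SpecialLinearGroup (Fin 3) k) : Mt k)ᵀ * (A : Mt k)ᵀ) *
              F.mapMatrix (A : Mt k) := by rw [h3, one_mul]
          _ = _ := by rw [mul_assoc, h, mul_one]
      rw [h1, its_its]
  have hr : ((SpecialLinearGroup.map E.subtype : SpecialLinearGroup (Fin 3) E →*
      SpecialLinearGroup (Fin 3) k).comp (SU 3 E q).subtype).range =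
      (its.comp (SpecialLinearGroup.map F) : SpecialLinearGroup (Fin 3) k →* _).eqLocus (MonoidHom.id _) := by
    have hcomp : ∀ B : Matrix (Fin 3) (Fin 3) E, E.subtype.mapMatrix (B.map σ) = F.mapMatrix (E.subtype.mapMatrix B) := by
      intro B
      ext i j
      show ((σ (B i j) : E) : k) = F (B i j : k)
      rw [hσ, hF]
      rfl
    have hEinj : Function.Injective (E.subtype.mapMatrix : Matrix (Fin 3) (Fin 3) E →+* Mt k) := by
      intro B C h
      ext i j
      exact congrArg (fun D : Mt k => D i j) h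
    ext A
    constructor
    · rintro ⟨B, rfl⟩
      have h1 := (Cfsg.Agent.H155.Unit.mem_SU_iff_matrix σ hσ B.1).1 B.2
      refine (hfix _).2 ?_
      show (E.subtype.mapMatrix (B.1 : Matrix (Fin 3) (Fin 3) E))ᵀ *
        F.mapMatrix (E.subtype.mapMatrix (B.1 : Matrix (Fin 3) (Fin 3) E)) = 1
      rw [← hcomp]
      have h2 := congrArg E.subtype.mapMatrix h1
      rw [map_mul, map_one] at h2
      exact h2
    · intro hA
      have hA' : its (SpecialLinearGroup.map F A) = A := hA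
      have h1 : ∀ i j, (A : Mt k) i j ∈ E := by
        intro i j
        rw [hE]
        have h2 : SpecialLinearGroup.map F (SpecialLinearGroup.map F A) = A := by
          have h3 : SpecialLinearGroup.map F A = its A := by rw [← its_its (SpecialLinearGroup.map F A), hA']
          rw [h3, map_its, hA']
        exact congrArg (fun C : SpecialLinearGroup (Fin 3) k => (C : Mt k) i j) h2
      let B : Matrix (Fin 3) (Fin 3) E := fun i j => ⟨(A : Mt k) i j, h1 i j⟩
      have hB : E.subtype.mapMatrix B = (A : Mt k) := by ext i j; rfl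
      have hd : B.det = 1 := by
        apply E.subtype.injective
        rw [RingHom.map_det, hB, A.2, map_one]
      refine ⟨⟨⟨B, hd⟩, (Cfsg.Agent.H155.Unit.mem_SU_iff_matrix σ hσ ⟨B, hd⟩).2 ?_⟩, Subtype.ext hB⟩
      apply hEinj
      rw [map_mul, map_one, hcomp]
      show (E.subtype.mapMatrix B)ᵀ * F.mapMatrix (E.subtype.mapMatrix B) = 1
      rw [hB]
      exact (hfix A).1 hA'
  exact ⟨((MonoidHom.ofInjective hinj).trans (MulEquiv.subgroupCongr hr)).symm⟩

end conj

/-! ### the two theorems -/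

section main

variable {k : Type*} [Field k]

local notation "Mt" => Matrix (Fin 3) (Fin 3)

open Cfsg.Agent.LieClassical.SLGen
open scoped commutatorElement

/-- a transvection -/
abbrev Tr {i j : Fin 3} (hij : i ≠ j) (t : k) : SpecialLinearGroup (Fin 3) k := SpecialLinearGroup.transvection hij t

theorem Tr_inj {i j : Fin 3} (hij : i ≠ j) {s t : k} (h : Tr hij s = Tr hij t) : s = t := by
  have h1 := congrArg (fun C : SpecialLinearGroup (Fin 3) k => C.1 i j) h
  have h2 : ∀ u : k, (Tr hij u).1 i j = u := by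
    intro u
    show (transvection i j u) i j = u
    rw [transvection, Matrix.add_apply, single_apply_same, one_apply_ne hij, zero_add]
  rwa [h2, h2] at h1

theorem Tr_one {i j : Fin 3} (hij : i ≠ j) {t : k} (h : Tr hij t = 1) : t = 0 := by
  apply Tr_inj hij
  rw [h]
  exact (SpecialLinearGroup.transvection_coeff_zero hij).symm

/-- The linear relations of the coefficients. -/
theorem rel_SL {n : ℕ} (τ : MulAut (SpecialLinearGroup (Fin 3) k)) (c : Fin 3 → Fin 3 → k)
    (h : ∀ (i j : Fin 3) (hij : i ≠ j) (t : k), τ (Tr hij t) = Tr hij (c i j * t ^ n)) {i j l : Fin 3}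
    (hij : i ≠ j) (hjl : j ≠ l) (hil : i ≠ l) : c i l = c i j * c j l := by
  have h1 : ⁅Tr hij (1 : k), Tr hjl (1 : k)⁆ = Tr hil ((1 : k) * 1) := commutator_transvection hil hij hjl 1 1
  have h2 := congrArg τ h1
  rw [map_commutatorElement, h, h, h, commutator_transvection hil hij hjl] at h2
  have h3 := Tr_inj hil h2
  simp only [one_pow, mul_one] at h3
  exact h3.symm

theorem rel_SU {n : ℕ} (τ : MulAut (SpecialLinearGroup (Fin 3) k)) (c : Fin 3 → Fin 3 → k)
    (h : ∀ (i j : Fin 3) (hij : i ≠ j) (t : k), τ (Tr hij t) =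
      Tr (show Fin.rev j ≠ Fin.rev i from fun e => hij (Fin.rev_injective e).symm) (c i j * t ^ n)) {i j l : Fin 3}
    (hij : i ≠ j) (hjl : j ≠ l) (hil : i ≠ l) : c i l = -(c i j * c j l) := by
  have h1 : ⁅Tr hij (1 : k), Tr hjl (1 : k)⁆ = Tr hil ((1 : k) * 1) := commutator_transvection hil hij hjl 1 1
  have h2 := congrArg τ h1
  rw [map_commutatorElement, h, h, h, ← commutatorElement_inv,
    commutator_transvection (show Fin.rev l ≠ Fin.rev i from fun e => hil (Fin.rev_injective e).symm)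
      (show Fin.rev l ≠ Fin.rev j from fun e => hjl (Fin.rev_injective e).symm)
      (show Fin.rev j ≠ Fin.rev i from fun e => hij (Fin.rev_injective e).symm),
    SpecialLinearGroup.transvection_inv] at h2
  have h3 := Tr_inj _ h2
  simp only [one_pow, mul_one] at h3
  rw [← h3]
  ring

theorem map_Tr (F : k →+* k) {i j : Fin 3} (hij : i ≠ j) (t : k) :
    SpecialLinearGroup.map F (Tr hij t) = Tr hij (F t) := by
  apply Subtype.ext
  show F.mapMatrix (transvection i j t) = transvection i j (F t)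
  ext a b
  rw [RingHom.mapMatrix_apply, Matrix.map_apply, transvection, transvection, Matrix.add_apply, Matrix.add_apply,
    map_add, Matrix.single_apply, Matrix.single_apply, Matrix.one_apply]
  split_ifs <;> simp

theorem its_Tr {i j : Fin 3} (hij : i ≠ j) (t : k) : its (Tr hij t) = Tr hij.symm (-t) := by
  apply Subtype.ext
  show (((Tr hij t)⁻¹ : SpecialLinearGroup (Fin 3) k).1)ᵀ = transvection j i (-t)
  rw [SpecialLinearGroup.transvection_inv]
  show (transvection i j (-t))ᵀ = _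
  rw [transvection, transvection, transpose_add, transpose_one, transpose_single]

/-- an invertible diagonal matrix -/
def dg (x : Fin 3 → k) (hx : ∀ i, x i ≠ 0) : (Mt k)ˣ :=
  ⟨diagonal x, diagonal fun i => (x i)⁻¹, by
    rw [diagonal_mul_diagonal, ← diagonal_one]
    congr 1
    funext i
    exact mul_inv_cancel₀ (hx i), by
    rw [diagonal_mul_diagonal, ← diagonal_one]
    congr 1
    funext i
    exact inv_mul_cancel₀ (hx i)⟩

/-- The matrix with the entries `m j` at `(rev j, j)`. -/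
def Mm (m : Fin 3 → k) : Mt k := fun a b => if a = Fin.rev b then m b else 0

theorem Mm_single (m : Fin 3 → k) (i j : Fin 3) (s : k) :
    Mm m * single j i s = single (Fin.rev j) i (m j * s) := by
  ext a b
  rw [Matrix.mul_apply, Matrix.single_apply]
  simp only [Mm, Matrix.single_apply]
  rw [Finset.sum_eq_single j]
  · by_cases h1 : a = Fin.rev j <;> by_cases h2 : i = b <;> simp [h1, h2, eq_comm]
  · intro c _ hc
    have h3 : ¬(j = c ∧ i = b) := fun h => hc h.1.symm
    rw [if_neg h3, mul_zero]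
  · intro h
    exact absurd (Finset.mem_univ _) h

theorem single_Mm (m : Fin 3 → k) (i j : Fin 3) (s : k) :
    single (Fin.rev j) (Fin.rev i) s * Mm m = single (Fin.rev j) i (s * m i) := by
  ext a b
  rw [Matrix.mul_apply, Matrix.single_apply]
  simp only [Mm, Matrix.single_apply]
  rw [Finset.sum_eq_single (Fin.rev i)]
  · by_cases h1 : Fin.rev j = a <;> by_cases h2 : i = b
    · subst h2
      simp [h1]
    · rw [if_pos ⟨h1, rfl⟩, if_neg (fun h => h2 (Fin.rev_injective h)), if_neg (fun h => h2 h.2), mul_zero]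
    · have h3 : ¬(Fin.rev j = a ∧ Fin.rev i = Fin.rev i) := fun h => h1 h.1
      have h4 : ¬(Fin.rev j = a ∧ i = b) := fun h => h1 h.1
      rw [if_neg h3, if_neg h4, zero_mul]
    · have h3 : ¬(Fin.rev j = a ∧ Fin.rev i = Fin.rev i) := fun h => h1 h.1
      have h4 : ¬(Fin.rev j = a ∧ i = b) := fun h => h1 h.1
      rw [if_neg h3, if_neg h4, zero_mul]
  · intro c _ hc
    have h3 : ¬(Fin.rev j = a ∧ Fin.rev i = c) := fun h => hc h.2.symm
    rw [if_neg h3, zero_mul]
  · intro h
    exact absurd (Finset.mem_univ _) h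

theorem Mm_mul (m : Fin 3 → k) (hm : ∀ i, m i ≠ 0) : Mm m * Mm (fun i => (m (Fin.rev i))⁻¹) = 1 := by
  ext a b
  rw [Matrix.mul_apply, Matrix.one_apply]
  simp only [Mm]
  rw [Finset.sum_eq_single (Fin.rev b)]
  · rw [Fin.rev_rev, if_pos rfl]
    by_cases h : a = b
    · rw [if_pos h, if_pos h, mul_inv_cancel₀ (hm _)]
    · rw [if_neg h, if_neg h, zero_mul]
  · intro c _ hc
    rw [if_neg hc, mul_zero]
  · intro h
    exact absurd (Finset.mem_univ _) h

/-- the monomial matrix -/
def mm (m : Fin 3 → k) (hm : ∀ i, m i ≠ 0) : (Mt k)ˣ :=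
  ⟨Mm m, Mm (fun i => (m (Fin.rev i))⁻¹), Mm_mul m hm, mul_eq_one_comm.1 (Mm_mul m hm)⟩

/-- Lang's equation for the hermitian form. -/
theorem exists_X [IsAlgClosed k] {r : ℕ} [Fact r.Prime] [CharP k r] {e : ℕ} (he : 0 < e) (F : k →+* k)
    (hF : ∀ t, F t = t ^ r ^ e) (m : Fin 3 → k) (hm : ∀ i, m i ≠ 0) : ∃ X : Mt k, X * (F.mapMatrix X)ᵀ = Mm m := by
  have hp : r.Prime := Fact.out
  set q := r ^ e with hq
  have hq1 : 1 < q := Nat.one_lt_pow he.ne' hp.one_lt
  have hq0 : (q : k) = 0 := by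
    rw [hq, Nat.cast_pow, CharP.cast_eq_zero, zero_pow he.ne']
  -- two solutions of `x ^ (q + 1) = -1`
  obtain ⟨ε, hε⟩ := IsAlgClosed.exists_pow_nat_eq (-1 : k) (n := q + 1) (by omega)
  have hne : NeZero ((q + 1 : ℕ) : k) := ⟨by push_cast; rw [hq0, zero_add]; exact one_ne_zero⟩
  obtain ⟨ζ, hζ⟩ := HasEnoughRootsOfUnity.exists_primitiveRoot k (q + 1)
  have hζ1 : ζ ^ (q + 1) = 1 := hζ.pow_eq_one
  have hζ2 : ζ ≠ 1 := hζ.ne_one (by omega)
  set δ : k := ζ * ε with hδ
  have hδ1 : δ ^ (q + 1) = -1 := by rw [hδ, mul_pow, hζ1, one_mul, hε]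
  have hε0 : ε ≠ 0 := by
    rintro rfl
    rw [zero_pow (by omega)] at hε
    exact one_ne_zero (neg_eq_zero.1 hε.symm)
  have hδ0 : δ ≠ 0 := by
    intro h
    rw [h, zero_pow (by omega)] at hδ1
    exact one_ne_zero (neg_eq_zero.1 hδ1.symm)
  have hεδ : δ - ε ≠ 0 := by
    intro h
    have h1 : (ζ - 1) * ε = 0 := by rw [← h, hδ]; ring
    rcases mul_eq_zero.1 h1 with h2 | h2
    · exact hζ2 (sub_eq_zero.1 h2)
    · exact hε0 h2
  have hα : (1 + ε * δ ^ q) * δ = δ - ε := by
    have : δ ^ (q + 1) = δ ^ q * δ := pow_succ _ _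
    rw [this] at hδ1
    linear_combination ε * hδ1
  have hβ : (1 + δ * ε ^ q) * ε = -(δ - ε) := by
    have : ε ^ (q + 1) = ε ^ q * ε := pow_succ _ _
    rw [this] at hε
    linear_combination δ * hε
  have hα0 : 1 + ε * δ ^ q ≠ 0 := fun h => hεδ (by rw [← hα, h, zero_mul])
  have hβ0 : 1 + δ * ε ^ q ≠ 0 := fun h => hεδ (by
    rw [h, zero_mul] at hβ
    exact neg_eq_zero.1 hβ.symm)
  obtain ⟨α, hα'⟩ : ∃ α, α = 1 + ε * δ ^ q := ⟨_, rfl⟩
  obtain ⟨β, hβ'⟩ : ∃ β, β = 1 + δ * ε ^ q := ⟨_, rfl⟩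
  rw [← hα'] at hα0
  rw [← hβ'] at hβ0
  obtain ⟨b, hb⟩ := IsAlgClosed.exists_pow_nat_eq (m 1) (n := q + 1) (by omega)
  obtain ⟨z, hz⟩ := IsAlgClosed.exists_pow_nat_eq (β * m 2 ^ q / (α ^ q * m 0)) (n := q * q - 1) (by
    have : 1 < q * q := by nlinarith
    omega)
  have hz0 : z ≠ 0 := by
    rintro rfl
    rw [zero_pow (by
      have : 1 < q * q := by nlinarith
      omega)] at hz
    have h1 : β * m 2 ^ q / (α ^ q * m 0) ≠ 0 :=
      div_ne_zero (mul_ne_zero hβ0 (pow_ne_zero _ (hm 2))) (mul_ne_zero (pow_ne_zero _ hα0) (hm 0))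
    exact h1 hz.symm
  have hz1 : z ^ (q * q) = z * (β * m 2 ^ q / (α ^ q * m 0)) := by
    rw [← hz, ← pow_succ']
    congr 1
    have : 1 < q * q := by nlinarith
    omega
  obtain ⟨x, hx⟩ : ∃ x, x = m 2 / (α * z ^ q) := ⟨_, rfl⟩
  have e1 : x * z ^ q * α = m 2 := by
    rw [hx]
    field_simp
  have e2 : z * x ^ q * β = m 0 := by
    rw [hx, div_pow, mul_pow, ← pow_mul, hz1]
    have := hm 2
    have := hm 0
    field_simp
  refine ⟨!![x, 0, ε * x; 0, b, 0; z, 0, δ * z], ?_⟩
  have hFz : F 0 = 0 := map_zero F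
  ext i j
  rw [Matrix.mul_apply, Fin.sum_univ_three]
  simp only [Matrix.transpose_apply, RingHom.mapMatrix_apply, Matrix.map_apply]
  fin_cases i <;> fin_cases j
  · show x * F x + 0 * F 0 + (ε * x) * F (ε * x) = 0
    rw [map_mul, hF x, hF ε]
    rw [pow_succ] at hε
    linear_combination x * x ^ q * hε
  · show x * F 0 + 0 * F b + (ε * x) * F 0 = 0
    rw [hFz]; ring
  · show x * F z + 0 * F 0 + (ε * x) * F (δ * z) = m 2
    rw [map_mul, hF z, hF δ, ← e1, hα']
    ring
  · show 0 * F x + b * F 0 + 0 * F (ε * x) = 0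
    rw [hFz]; ring
  · show 0 * F 0 + b * F b + 0 * F 0 = m 1
    rw [hF b, ← hb, pow_succ]; ring
  · show 0 * F z + b * F 0 + 0 * F (δ * z) = 0
    rw [hFz]; ring
  · show z * F x + 0 * F 0 + (δ * z) * F (ε * x) = m 0
    rw [map_mul, hF x, hF ε, ← e2, hβ']
    ring
  · show z * F 0 + 0 * F b + (δ * z) * F 0 = 0
    rw [hFz]; ring
  · show z * F z + 0 * F 0 + (δ * z) * F (δ * z) = 0
    rw [map_mul, hF z, hF δ]
    rw [pow_succ] at hδ1
    linear_combination z * z ^ q * hδ1

theorem coef_ne {n : ℕ} (τ : MulAut (SpecialLinearGroup (Fin 3) k)) {i j i' j' : Fin 3} (hij : i ≠ j)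
    (hij' : i' ≠ j') {c : k} (h : τ (Tr hij 1) = Tr hij' (c * 1 ^ n)) : c ≠ 0 := by
  rintro rfl
  rw [zero_mul] at h
  have h0 : Tr hij' (0 : k) = 1 := SpecialLinearGroup.transvection_coeff_zero hij'
  rw [h0, ← map_one τ] at h
  exact one_ne_zero (Tr_one hij (τ.injective h))

theorem fin3 : ∀ i : Fin 3, i = 0 ∨ i = 1 ∨ i = 2 := by decide

/-- **TRI-4a** -/
theorem fix_SL3' [IsAlgClosed k] {r : ℕ} [Fact r.Prime] [CharP k r] {e : ℕ} (he : 0 < e)
    (τ : MulAut (SpecialLinearGroup (Fin 3) k)) (c : Fin 3 → Fin 3 → k)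
    (h : ∀ (i j : Fin 3) (hij : i ≠ j) (t : k), τ (Tr hij t) = Tr hij (c i j * t ^ (r ^ e))) :
    ∃ E : Subfield k, Nat.card E = r ^ e ∧
      Nonempty (↥(τ.toMonoidHom.eqLocus (MonoidHom.id _)) ≃* SpecialLinearGroup (Fin 3) E) := by
  have hp : r.Prime := Fact.out
  have : ExpChar k r := ExpChar.prime Fact.out
  set q := r ^ e with hq
  have hq1 : 1 < q := Nat.one_lt_pow he.ne' hp.one_lt
  have h01 : (0 : Fin 3) ≠ 1 := by decide
  have h02 : (0 : Fin 3) ≠ 2 := by decide
  have h12 : (1 : Fin 3) ≠ 2 := by decide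
  have hc : ∀ i j : Fin 3, i ≠ j → c i j ≠ 0 := fun i j hij => coef_ne τ hij hij (h i j hij 1)
  have r012 := rel_SL τ c h h01 h12 h02
  have r120 := rel_SL τ c h h12 h02.symm h01.symm
  have r201 := rel_SL τ c h h02.symm h01 h12.symm
  have r021 := rel_SL τ c h h02 h12.symm h01
  have r102 := rel_SL τ c h h01.symm h02 h12
  have r210 := rel_SL τ c h h12.symm h01.symm h02.symm
  have e01 : c 0 1 * c 1 0 = 1 := by
    apply mul_right_cancel₀ (hc 0 2 h02)
    rw [one_mul]
    nth_rewrite 2 [r012]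
    rw [r102]
    ring
  have e02 : c 0 2 * c 2 0 = 1 := by
    apply mul_right_cancel₀ (hc 0 1 h01)
    rw [one_mul]
    nth_rewrite 2 [r021]
    rw [r201]
    ring
  let d : Fin 3 → k := ![1, c 1 0, c 2 0]
  have hd : ∀ i, d i ≠ 0 := by
    intro i
    fin_cases i
    · exact one_ne_zero
    · exact hc 1 0 h01.symm
    · exact hc 2 0 h02.symm
  have hcd : ∀ i j : Fin 3, i ≠ j → c i j * d j = d i := by
    intro i j hij
    fin_cases i <;> fin_cases j
    · exact absurd rfl hij
    · exact e01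
    · exact e02
    · exact mul_one _
    · exact absurd rfl hij
    · exact r120.symm
    · exact mul_one _
    · exact r210.symm
    · exact absurd rfl hij
  have hx : ∀ i, ∃ x : k, x ≠ 0 ∧ d i * x ^ q = x := by
    intro i
    obtain ⟨x, hx⟩ := IsAlgClosed.exists_pow_nat_eq (d i)⁻¹ (n := q - 1) (by omega)
    have hx0 : x ≠ 0 := by
      rintro rfl
      rw [zero_pow (by omega)] at hx
      exact inv_ne_zero (hd i) hx.symm
    refine ⟨x, hx0, ?_⟩
    have h1 : x ^ q = x ^ (q - 1) * x := by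
      rw [← pow_succ]
      congr 1
      omega
    rw [h1, hx, ← mul_assoc, mul_inv_cancel₀ (hd i), one_mul]
  choose x hx0 hx using hx
  set F : k →+* k := iterateFrobenius k r e with hF
  have hFt : ∀ t, F t = t ^ q := fun t => by rw [hF, iterateFrobenius_def]
  obtain ⟨E, hE, hE'⟩ := exists_subfield (k := k) (r := r) he
  refine ⟨E, hE, ?_⟩
  have H1 : ∀ A, τ A = cj (dg d hd) (SpecialLinearGroup.map F A) := by
    refine transvection_induction _ ?_ ?_
    · intro i j hij t
      refine (h i j hij t).trans ?_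
      symm
      apply cj_eq
      rw [map_Tr, hFt]
      show diagonal d * transvection i j (t ^ q) = transvection i j (c i j * t ^ q) * diagonal d
      rw [transvection, transvection, mul_add, add_mul, mul_one, one_mul]
      congr 1
      ext a b
      rw [diagonal_mul, mul_diagonal, Matrix.single_apply, Matrix.single_apply]
      split_ifs with h1
      · obtain ⟨rfl, rfl⟩ := h1
        rw [← hcd i j hij]
        ring
      · rw [mul_zero, zero_mul]
    · intro A B hA hB
      rw [map_mul, map_mul, map_mul, hA, hB]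
  have H2 : dg d hd * Units.map F.mapMatrix.toMonoidHom (dg x hx0) = dg x hx0 := by
    apply Units.ext
    show diagonal d * F.mapMatrix (diagonal x) = diagonal x
    rw [RingHom.mapMatrix_apply, diagonal_map (map_zero F), diagonal_mul_diagonal]
    congr 1
    funext i
    show d i * F (x i) = x i
    rw [hFt, hx]
  obtain ⟨e1⟩ := fix_equiv τ (cj (dg x hx0)) (SpecialLinearGroup.map F) (inter_SL F τ _ _ H1 H2)
  obtain ⟨e2⟩ := fix_map F E (fun t => by rw [hE', hFt])
  exact ⟨e1.trans e2⟩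

/-- **TRI-4b** -/
theorem fix_SU3' [IsAlgClosed k] {r : ℕ} [Fact r.Prime] [CharP k r] {e : ℕ} (he : 0 < e)
    (τ : MulAut (SpecialLinearGroup (Fin 3) k)) (c : Fin 3 → Fin 3 → k)
    (h : ∀ (i j : Fin 3) (hij : i ≠ j) (t : k), τ (Tr hij t) =
      Tr (show Fin.rev j ≠ Fin.rev i from fun e => hij (Fin.rev_injective e).symm) (c i j * t ^ (r ^ e))) :
    ∃ E : Subfield k, Nat.card E = (r ^ e) ^ 2 ∧
      Nonempty (↥(τ.toMonoidHom.eqLocus (MonoidHom.id _)) ≃* ↥(SU 3 E (r ^ e))) := by
  have hp : r.Prime := Fact.out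
  have : ExpChar k r := ExpChar.prime Fact.out
  set q := r ^ e with hq
  have hq1 : 1 < q := Nat.one_lt_pow he.ne' hp.one_lt
  have h01 : (0 : Fin 3) ≠ 1 := by decide
  have h02 : (0 : Fin 3) ≠ 2 := by decide
  have h12 : (1 : Fin 3) ≠ 2 := by decide
  have hc : ∀ i j : Fin 3, i ≠ j → c i j ≠ 0 := fun i j hij => coef_ne τ hij _ (h i j hij 1)
  have r012 := rel_SU τ c h h01 h12 h02
  have r120 := rel_SU τ c h h12 h02.symm h01.symm
  have r201 := rel_SU τ c h h02.symm h01 h12.symm
  have r021 := rel_SU τ c h h02 h12.symm h01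
  have r102 := rel_SU τ c h h01.symm h02 h12
  have r210 := rel_SU τ c h h12.symm h01.symm h02.symm
  have e01 : c 0 1 * c 1 0 = 1 := by
    apply mul_right_cancel₀ (hc 0 2 h02)
    rw [one_mul]
    nth_rewrite 2 [r012]
    rw [r102]
    ring
  have e02 : c 0 2 * c 2 0 = 1 := by
    apply mul_right_cancel₀ (hc 0 1 h01)
    rw [one_mul]
    nth_rewrite 2 [r021]
    rw [r201]
    ring
  let m : Fin 3 → k := ![1, -c 0 1, -c 0 2]
  have hm : ∀ i, m i ≠ 0 := by
    intro i
    fin_cases i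
    · exact one_ne_zero
    · exact neg_ne_zero.2 (hc 0 1 h01)
    · exact neg_ne_zero.2 (hc 0 2 h02)
  have hcm : ∀ i j : Fin 3, i ≠ j → c i j * m i = -m j := by
    intro i j hij
    fin_cases i <;> fin_cases j
    · exact absurd rfl hij
    · show c 0 1 * 1 = -(-c 0 1)
      ring
    · show c 0 2 * 1 = -(-c 0 2)
      ring
    · show c 1 0 * (-c 0 1) = -1
      rw [← e01]; ring
    · exact absurd rfl hij
    · show c 1 2 * (-c 0 1) = -(-c 0 2)
      rw [r012]; ring
    · show c 2 0 * (-c 0 2) = -1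
      rw [← e02]; ring
    · show c 2 1 * (-c 0 2) = -(-c 0 1)
      rw [r021]; ring
    · exact absurd rfl hij
  set F : k →+* k := iterateFrobenius k r e with hF
  have hFt : ∀ t, F t = t ^ q := fun t => by rw [hF, iterateFrobenius_def]
  obtain ⟨E, hE, hE'⟩ := exists_subfield (k := k) (r := r) (e := e * 2) (by omega)
  have hEF : ∀ t : k, t ∈ E ↔ F (F t) = t := by
    intro t
    rw [hE', hFt, hFt, ← pow_mul, ← pow_two, ← pow_mul]
  refine ⟨E, by rw [hE, hq, ← pow_mul], ?_⟩
  have hmap : ∀ t : E, (t : k) ^ q ∈ E := by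
    intro t
    exact pow_mem t.2 q
  let σ : E →+* E :=
    { toFun := fun t => t ^ q
      map_one' := one_pow q
      map_mul' := fun s t => mul_pow s t q
      map_zero' := zero_pow (by omega)
      map_add' := fun s t => Subtype.ext (by
        show ((s : k) + (t : k)) ^ q = (s : k) ^ q + (t : k) ^ q
        rw [← hFt, ← hFt, ← hFt, map_add]) }
  have H1 : ∀ A, τ A = cj (mm m hm) (its (SpecialLinearGroup.map F A)) := by
    refine transvection_induction _ ?_ ?_
    · intro i j hij t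
      refine (h i j hij t).trans ?_
      symm
      apply cj_eq
      rw [map_Tr, hFt, its_Tr]
      show Mm m * transvection j i (-(t ^ q)) =
        transvection (Fin.rev j) (Fin.rev i) (c i j * t ^ q) * Mm m
      rw [transvection, transvection, mul_add, add_mul, mul_one, one_mul, Mm_single, single_Mm]
      congr 2
      linear_combination (-(t ^ q)) * hcm i j hij
    · intro A B hA hB
      rw [map_mul, map_mul, map_mul, map_mul, hA, hB]
  obtain ⟨X, hX⟩ := exists_X he F hFt m hm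
  have hX1 : X * ((F.mapMatrix X)ᵀ * ((mm m hm)⁻¹ : (Mt k)ˣ).1) = 1 := by
    rw [← mul_assoc, hX]
    exact (mm m hm).mul_inv
  let XU : (Mt k)ˣ := ⟨X, (F.mapMatrix X)ᵀ * ((mm m hm)⁻¹ : (Mt k)ˣ).1, hX1, mul_eq_one_comm.1 hX1⟩
  have H2 : mm m hm * itG (Units.map F.mapMatrix.toMonoidHom XU) = XU := by
    rw [← eq_mul_inv_iff_mul_eq]
    apply Units.ext
    exact hX.symm
  obtain ⟨e1⟩ := fix_equiv τ (cj XU) (its.comp (SpecialLinearGroup.map F)) (inter_SU F τ _ _ H1 H2)
  obtain ⟨e2⟩ := fix_its F hFt E hEF σ (fun t => rfl)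
  exact ⟨e1.trans e2⟩

end main

/-- **TRI-4a**, the form of the plan. -/
theorem fix_SL3 {k : Type} [Field k] [IsAlgClosed k] {r : ℕ} [Fact r.Prime] [CharP k r] {e : ℕ} (he : 0 < e)
    (τ : MulAut (Matrix.SpecialLinearGroup (Fin 3) k)) (c : Fin 3 → Fin 3 → k)
    (h : ∀ (i j : Fin 3) (hij : i ≠ j) (t : k),
      (τ ⟨Matrix.transvection i j t, by simp [hij]⟩ : Matrix (Fin 3) (Fin 3) k) =
        Matrix.transvection i j (c i j * t ^ (r ^ e))) :
    ∃ (F : Type) (_ : Field F) (_ : Fintype F) (_ : CharP F r), Fintype.card F = r ^ e ∧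
      Nonempty (↥(τ.toMonoidHom.eqLocus (MonoidHom.id _)) ≃* Matrix.SpecialLinearGroup (Fin 3) F) := by
  have hp : r.Prime := Fact.out
  obtain ⟨E, hE, he'⟩ := fix_SL3' he τ c (fun i j hij t => Subtype.ext (h i j hij t))
  have hfin : Finite E := Nat.finite_of_card_ne_zero (by rw [hE]; exact pow_ne_zero _ hp.ne_zero)
  have hft := Fintype.ofFinite E
  exact ⟨E, inferInstance, hft, inferInstance, by rw [← Nat.card_eq_fintype_card, hE], he'⟩

/-- **TRI-4b**, the form of the plan. -/
theorem fix_SU3 {k : Type} [Field k] [IsAlgClosed k] {r : ℕ} [Fact r.Prime] [CharP k r] {e : ℕ} (he : 0 < e)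
    (τ : MulAut (Matrix.SpecialLinearGroup (Fin 3) k)) (c : Fin 3 → Fin 3 → k)
    (h : ∀ (i j : Fin 3) (hij : i ≠ j) (t : k),
      (τ ⟨Matrix.transvection i j t, by simp [hij]⟩ : Matrix (Fin 3) (Fin 3) k) =
        Matrix.transvection (Fin.rev j) (Fin.rev i) (c i j * t ^ (r ^ e))) :
    ∃ (F : Type) (_ : Field F) (_ : Fintype F) (_ : CharP F r), Fintype.card F = (r ^ e) ^ 2 ∧
      Nonempty (↥(τ.toMonoidHom.eqLocus (MonoidHom.id _)) ≃* ↥(SU 3 F (r ^ e))) := by
  have hp : r.Prime := Fact.out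
  obtain ⟨E, hE, he'⟩ := fix_SU3' he τ c (fun i j hij t => Subtype.ext (h i j hij t))
  have hfin : Finite E := Nat.finite_of_card_ne_zero (by rw [hE]; exact pow_ne_zero _ (pow_ne_zero _ hp.ne_zero))
  have hft := Fintype.ofFinite E
  exact ⟨E, inferInstance, hft, inferInstance, by rw [← Nat.card_eq_fintype_card, hE], he'⟩

end Cfsg.Agent.H592.TriFix
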